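import Mathlib
import Cfsg.Agent.Lib.Helper60.NseM11.Defs

/-!
# S3592 (NseM11), package [FROB3]

Frobenius for the prime `3`: if `3 ∣ |G|` then the number of elements of order `3` is `2` mod `3`.
-/

set_option autoImplicit false

namespace Cfsg.Agent.Lib.Helper80.NseM11

open Cfsg.Agent.Lib.Helper60.NseM11

universe u

/-- [FROB3] -/
theorem pkgFrob3 : PkgFrob3.{u} := by
  intro G _ _ h3
  classical
  have : Fintype G := Fintype.ofFinite G
  have : Fact (Nat.Prime 3) := ⟨by norm_num⟩
  let f : Function.End (G × G) := fun p => (p.2, (p.1 * p.2)⁻¹)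
  have hf3 : ∀ p : G × G, f (f (f p)) = p := by
    rintro ⟨a, b⟩
    show ((b * (a * b)⁻¹)⁻¹, ((a * b)⁻¹ * (b * (a * b)⁻¹)⁻¹)⁻¹) = (a, b)
    refine Prod.ext ?_ ?_
    · show (b * (a * b)⁻¹)⁻¹ = a
      group
    · show ((a * b)⁻¹ * (b * (a * b)⁻¹)⁻¹)⁻¹ = b
      group
  have hf : f ^ 3 ^ 1 = 1 := by
    rw [pow_one]
    funext p
    show (f * (f * f)) p = p
    exact hf3 p
  have hmod := Equiv.Perm.card_fixedPoints_modEq (α := G × G) hf
  -- the fixed points are the pairs `(a, a)` with `a ^ 3 = 1`
  have hfix : Fintype.card (Function.fixedPoints f) = Fintype.card {a : G // a ^ 3 = 1} := by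
    refine (Fintype.card_congr (Equiv.ofBijective
      (fun a : {a : G // a ^ 3 = 1} => (⟨(a.1, a.1), ?_⟩ : Function.fixedPoints f)) ⟨?_, ?_⟩)).symm
    · show f (a.1, a.1) = (a.1, a.1)
      refine Prod.ext rfl ?_
      show (a.1 * a.1)⁻¹ = a.1
      have h : a.1 ^ 3 = 1 := a.2
      rw [inv_eq_iff_mul_eq_one, ← pow_three']
      exact h
    · intro a b hab
      have h := congrArg (fun q : Function.fixedPoints f => q.1.1) hab
      exact Subtype.ext h
    · rintro ⟨⟨a, b⟩, hp⟩
      have h1 : f (a, b) = (a, b) := hp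
      have h2 : b = a := congrArg Prod.fst h1
      have h3' : (a * b)⁻¹ = b := congrArg Prod.snd h1
      subst h2
      refine ⟨⟨b, ?_⟩, rfl⟩
      have h4 : b * b * b = 1 := inv_eq_iff_mul_eq_one.mp h3'
      rw [pow_three']
      exact h4
  -- count the solutions of `a ^ 3 = 1`
  have hcount : Fintype.card {a : G // a ^ 3 = 1} =
      Nat.card {g : G // orderOf g = 3} + 1 := by
    rw [Fintype.card_subtype, Nat.card_eq_fintype_card, Fintype.card_subtype]
    have hset : (Finset.univ.filter (fun a : G => a ^ 3 = 1)) =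
        insert 1 (Finset.univ.filter (fun a : G => orderOf a = 3)) := by
      ext a
      simp only [Finset.mem_filter, Finset.mem_univ, true_and, Finset.mem_insert]
      constructor
      · intro h
        have hd : orderOf a ∣ 3 := orderOf_dvd_of_pow_eq_one h
        rcases (Nat.dvd_prime (by norm_num : Nat.Prime 3)).mp hd with h1 | h1
        · left; exact orderOf_eq_one_iff.mp h1
        · right; exact h1
      · rintro (h | h)
        · rw [h, one_pow]
        · rw [← h]; exact pow_orderOf_eq_one a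
    rw [hset, Finset.card_insert_of_notMem]
    simp
  have hcard : Fintype.card (G × G) = Nat.card G * Nat.card G := by
    rw [Fintype.card_prod, Nat.card_eq_fintype_card]
  rw [hfix, hcount, hcard] at hmod
  unfold Nat.ModEq at hmod
  obtain ⟨k, hk⟩ := h3
  rw [hk] at hmod
  have h5 : 3 * k * (3 * k) % 3 = 0 := by
    rw [mul_assoc]; exact Nat.mul_mod_right 3 _
  rw [h5] at hmod
  omega

end Cfsg.Agent.Lib.Helper80.NseM11
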